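import Mathlib
import Cfsg.Agent.Exceptional.Coherence

/-! Bessel's inequality for orthogonal families of virtual characters. -/

set_option autoImplicit false

namespace CfsgLib.Exceptional

open CfsgLib.CharBasics
open scoped ComplexConjugate

universe u v

variable {L : Type u} [Group L] [Fintype L] {G : Type v} [Group G] [Fintype G]

omit [Group L] [Fintype L] in
theorem bessel {ι : Type*} (S : Finset ι) (f : ι → (G → ℂ)) (N y : ι → ℝ) (hN : ∀ i ∈ S, 0 < N i)
    (horth : ∀ i ∈ S, ∀ j ∈ S, i ≠ j → Cfsg.classInner (f i) (f j) = 0)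
    (hself : ∀ i ∈ S, Cfsg.classInner (f i) (f i) = (N i : ℂ)) (Y : G → ℂ)
    (hy : ∀ i ∈ S, Cfsg.classInner Y (f i) = (y i : ℂ)) :
    ∑ i ∈ S, y i ^ 2 / N i ≤ (Cfsg.classInner Y Y).re ∧
      ((Cfsg.classInner Y Y).re ≤ ∑ i ∈ S, y i ^ 2 / N i →
        Y = ∑ i ∈ S, ((y i / N i : ℝ) : ℂ) • f i) := by
  classical
  set P := ∑ i ∈ S, ((y i / N i : ℝ) : ℂ) • f i
  have hP : ∀ i ∈ S, Cfsg.classInner (Y - P) (f i) = 0 := by
    intro i hi
    rw [classInner_sub_left, classInner_sum_left, Finset.sum_eq_single i, classInner_smul_left, hself i hi,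
      hy i hi, ← Complex.ofReal_mul, div_mul_cancel₀ _ (hN i hi).ne', sub_self]
    · intro j hj hne
      rw [classInner_smul_left, horth j hj i hi hne, mul_zero]
    · exact fun h => absurd hi h
  have hz : Cfsg.classInner (Y - P) P = 0 := by
    rw [classInner_sum_right]
    exact Finset.sum_eq_zero fun i hi => by rw [classInner_smul_right, hP i hi, mul_zero]
  have he : Cfsg.classInner (Y - P) (Y - P) = Cfsg.classInner Y Y - ((∑ i ∈ S, y i ^ 2 / N i : ℝ) : ℂ) := by
    rw [classInner_sub_right, hz, sub_zero, classInner_sub_left, Complex.ofReal_sum]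
    congr 1
    rw [classInner_sum_left]
    refine Finset.sum_congr rfl fun i hi => ?_
    rw [classInner_smul_left, classInner_comm Y (f i), hy i hi, Complex.conj_ofReal]
    push_cast
    ring
  have h0 := classInner_self_nonneg (Y - P)
  rw [he, Complex.sub_re, Complex.ofReal_re] at h0
  refine ⟨by linarith, fun hle => sub_eq_zero.1 (eq_zero_of_self_nonpos ?_)⟩
  rw [he, Complex.sub_re, Complex.ofReal_re]
  linarith

theorem isometry_mono {E E' : Set (L → ℂ)} {τ : (L → ℂ) → (G → ℂ)} (h : Cfsg.IsLinearIsometryOn E τ)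
    (hE : E' ⊆ E) : Cfsg.IsLinearIsometryOn E' τ :=
  ⟨fun a ha b hb => h.1 a (hE ha) b (hE hb), fun a ha n => h.2.1 a (hE ha) n,
    fun a ha b hb => h.2.2.1 a (hE ha) b (hE hb), fun a ha => h.2.2.2 a (hE ha)⟩

/-- Two virtual characters of norm one are orthogonal or agree up to the sign given by their product. -/
theorem norm_one_dichotomy {p q : G → ℂ} (hp : Cfsg.IsGeneralizedCharacter G p)
    (hq : Cfsg.IsGeneralizedCharacter G q) (hp1 : Cfsg.classInner p p = 1) (hq1 : Cfsg.classInner q q = 1) :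
    ∃ m : ℤ, Cfsg.classInner p q = m ∧ (m = 0 ∨ ((m = 1 ∨ m = -1) ∧ p = (m : ℂ) • q ∧ q = (m : ℂ) • p)) := by
  obtain ⟨m, hm⟩ := gen_inner_gen_int hp hq
  refine ⟨m, hm, ?_⟩
  have hm' : Cfsg.classInner q p = m := by rw [classInner_comm p q, hm, map_intCast]
  have he : Cfsg.classInner (p - (m : ℂ) • q) (p - (m : ℂ) • q) = ((1 - m ^ 2 : ℤ) : ℂ) := by
    rw [classInner_sub_left, classInner_sub_right, classInner_sub_right, classInner_smul_right, classInner_smul_left,
      classInner_smul_left, classInner_smul_right, hp1, hq1, hm, hm', map_intCast]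
    push_cast; ring
  have h0 := classInner_self_nonneg (p - (m : ℂ) • q)
  rw [he, Complex.intCast_re] at h0
  have h1 : 0 ≤ 1 - m ^ 2 := by exact_mod_cast h0
  have h2 : -1 ≤ m ∧ m ≤ 1 := by constructor <;> nlinarith
  by_cases hm0 : m = 0
  · exact Or.inl hm0
  have hm1 : m = 1 ∨ m = -1 := by omega
  have hsq : m ^ 2 = 1 := by rcases hm1 with h | h <;> simp [h]
  have hpq : p = (m : ℂ) • q := sub_eq_zero.1 (eq_zero_of_self (by rw [he, hsq]; simp))
  refine Or.inr ⟨hm1, hpq, ?_⟩
  rw [hpq, smul_smul]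
  rcases hm1 with h | h <;> simp [h]

end CfsgLib.Exceptional
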