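import Mathlib
import Cfsg.Agent.Exceptional.Bessel
import Cfsg.Agent.Exceptional.OddReal

/-!
No group of odd order is covered by several trivial intersection Frobenius kernels: the numerical part.
-/

set_option autoImplicit false

namespace CfsgLib.Exceptional

open CfsgLib.CharBasics
open scoped ComplexConjugate

universe u

theorem num_case₁ (e : ℝ) (he : 5 ≤ e) :
    1 / e + (2 * e + 5) / (2 * e + 5 - 1) * (e / (e * 2 + 1)) + (e - 1) / (2 * e + 5 - 1) < 1 := by
  rw [show 2 * e + 5 - 1 = 2 * e + 4 by ring, show e * 2 + 1 = 2 * e + 1 by ring]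
  have h : 1 / e + (2 * e + 5) / (2 * e + 4) * (e / (2 * e + 1)) + (e - 1) / (2 * e + 4)
      = 1 - (2 * e ^ 2 - 5 * e - 4) / (e * (2 * e + 1) * (2 * e + 4)) := by
    have h0 : e ≠ 0 := by linarith
    have h1 : 2 * e + 1 ≠ 0 := by linarith
    have h2 : 2 * e + 4 ≠ 0 := by linarith
    field_simp
    ring
  have h3 : 0 < (2 * e ^ 2 - 5 * e - 4) / (e * (2 * e + 1) * (2 * e + 4)) := div_pos (by nlinarith) (by positivity)
  linarith

theorem num_case₂ (e : ℝ) (he : 5 ≤ e) :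
    1 / e + (2 * e + 3) / (2 * e + 3 - 1) * (e / (e * 2 + 1)) + (e - 1) / (2 * e + 5 - 1) < 1 := by
  rw [show 2 * e + 5 - 1 = 2 * e + 4 by ring, show e * 2 + 1 = 2 * e + 1 by ring,
    show 2 * e + 3 - 1 = 2 * e + 2 by ring]
  have h : 1 / e + (2 * e + 3) / (2 * e + 2) * (e / (2 * e + 1)) + (e - 1) / (2 * e + 4)
      = 1 - (4 * e ^ 3 - 8 * e ^ 2 - 18 * e - 8) / (e * (2 * e + 1) * (2 * e + 2) * (2 * e + 4)) := by
    have h0 : e ≠ 0 := by linarith
    have h1 : 2 * e + 1 ≠ 0 := by linarith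
    have h2 : 2 * e + 4 ≠ 0 := by linarith
    have h3 : 2 * e + 2 ≠ 0 := by linarith
    field_simp
    ring
  have h3 : 0 < (4 * e ^ 3 - 8 * e ^ 2 - 18 * e - 8) / (e * (2 * e + 1) * (2 * e + 2) * (2 * e + 4)) :=
    div_pos (by nlinarith [mul_le_mul_of_nonneg_right he (sq_nonneg e)]) (by positivity)
  linarith

theorem num_case₃ (e : ℝ) (he : 11 ≤ e) :
    1 / e + (2 * e + 5) / (2 * e + 5 - 1) * (e / (e * 2 + 1)) + (e - 1) / (2 * e + 5 - 1)
      + 2 / (3 * (2 * e + 4)) < 1 := by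
  rw [show 2 * e + 5 - 1 = 2 * e + 4 by ring, show e * 2 + 1 = 2 * e + 1 by ring]
  have h : 1 / e + (2 * e + 5) / (2 * e + 4) * (e / (2 * e + 1)) + (e - 1) / (2 * e + 4) + 2 / (3 * (2 * e + 4))
      = 1 - (2 * e ^ 2 - 17 * e - 12) / (3 * e * (2 * e + 1) * (2 * e + 4)) := by
    have h0 : e ≠ 0 := by linarith
    have h1 : 2 * e + 1 ≠ 0 := by linarith
    have h2 : 2 * e + 4 ≠ 0 := by linarith
    field_simp
    ring
  have h3 : 0 < (2 * e ^ 2 - 17 * e - 12) / (3 * e * (2 * e + 1) * (2 * e + 4)) :=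
    div_pos (by nlinarith) (by positivity)
  linarith

/-- An exceptional family of `f` characters with the companion virtual character of norm `e + 1`. -/
structure Fam (G : Type u) [Group G] [Fintype G] where
  e : ℕ
  f : ℕ
  supp : Set G
  one_not : (1 : G) ∉ supp
  D : G → ℂ
  D_gen : Cfsg.IsGeneralizedCharacter G D
  D_supp : ∀ g, g ∉ supp → D g = 0
  D_norm : Cfsg.classInner D D = (e : ℂ) + 1
  D_one : Cfsg.classInner D (fun _ => 1) = 1
  T : Finset (Cfsg.IrrCharacter G)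
  card_T : T.card = f
  ne_one : ∀ a ∈ T, a ≠ oneChar
  diff_supp : ∀ a ∈ T, ∀ b ∈ T, ∀ g, g ∉ supp → (a : G → ℂ) g = (b : G → ℂ) g
  μ : Cfsg.IrrCharacter G
  μ' : Cfsg.IrrCharacter G
  μ_mem : μ ∈ T
  μ'_mem : μ' ∈ T
  μ'_eq : (μ' : G → ℂ) = Cfsg.conjFun (μ : G → ℂ)
  ε : ℤ
  ε_unit : ε = 1 ∨ ε = -1
  slope : ∀ a ∈ T, a ≠ μ → Cfsg.classInner D (a : G → ℂ) - Cfsg.classInner D (μ : G → ℂ) = (ε : ℂ)
  D_conj : Cfsg.conjFun D - D = (ε : ℂ) • ((μ : G → ℂ) - (μ' : G → ℂ))

variable {G : Type u} [Group G] [Fintype G]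

theorem classInner_eq_zero_of_disjoint {φ ψ : G → ℂ} (h : ∀ g, φ g = 0 ∨ ψ g = 0) : Cfsg.classInner φ ψ = 0 := by
  rw [classInner_eq, Finset.sum_eq_zero, mul_zero]
  intro g _
  rcases h g with h | h <;> simp [h]

theorem classInner_delta [DecidableEq G] (φ : G → ℂ) :
    Cfsg.classInner φ (fun g => if g = 1 then 1 else 0) = (Nat.card G : ℂ)⁻¹ * φ 1 := by
  rw [classInner_eq]
  congr 1
  rw [Finset.sum_eq_single (1 : G)]
  · simp
  · intro g _ hg; simp [hg]
  · intro h; exact absurd (Finset.mem_univ _) h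

namespace Fam

variable (F : Fam G)

/-- The integer coefficient of the companion at an irreducible character. -/
noncomputable def c (ψ : Cfsg.IrrCharacter G) : ℤ := Classical.choose (gen_inner_int F.D_gen ψ)

theorem c_spec (ψ : Cfsg.IrrCharacter G) : Cfsg.classInner F.D (ψ : G → ℂ) = F.c ψ :=
  Classical.choose_spec (gen_inner_int F.D_gen ψ)

theorem c_one : F.c oneChar = 1 := by
  have h := F.c_spec oneChar
  rw [show ((oneChar : Cfsg.IrrCharacter G) : G → ℂ) = fun _ => 1 from rfl, F.D_one] at h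
  exact_mod_cast h.symm

theorem c_slope {a : Cfsg.IrrCharacter G} (ha : a ∈ F.T) (hne : a ≠ F.μ) : F.c a = F.c F.μ + F.ε := by
  have h := F.slope a ha hne
  rw [F.c_spec, F.c_spec] at h
  have h' : F.c a - F.c F.μ = F.ε := by exact_mod_cast h
  omega

theorem sum_c_sq [Fintype (Cfsg.IrrCharacter G)] : ∑ ψ, F.c ψ ^ 2 = (F.e : ℤ) + 1 := by
  obtain ⟨n, hn, -, hnn⟩ := gen_coeff F.D_gen
  rw [F.D_norm] at hnn
  have h : ∀ ψ, n ψ = F.c ψ := fun ψ => by
    have := (hn ψ).symm.trans (F.c_spec ψ)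
    exact_mod_cast this
  simp only [h] at hnn
  exact_mod_cast hnn.symm

theorem μ'_ne (hodd : Odd (Nat.card G)) : F.μ' ≠ F.μ := fun h => by
  have h1 := F.μ'_eq
  rw [h] at h1
  exact conjFun_ne_of_odd hodd F.μ.2 (fun h2 => F.ne_one _ F.μ_mem (Subtype.ext h2)) h1.symm

theorem c_conj {ψ φ : Cfsg.IrrCharacter G} (h : (φ : G → ℂ) = Cfsg.conjFun (ψ : G → ℂ)) (h1 : ψ ≠ F.μ)
    (h2 : ψ ≠ F.μ') : F.c φ = F.c ψ := by
  have e1 : Cfsg.classInner F.D (φ : G → ℂ) = conj (Cfsg.classInner (Cfsg.conjFun F.D) (ψ : G → ℂ)) := by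
    rw [← classInner_conjFun', conjFun_conjFun, h]
  have e2 : Cfsg.conjFun F.D = F.D + (F.ε : ℂ) • ((F.μ : G → ℂ) - (F.μ' : G → ℂ)) := by
    rw [← F.D_conj]; abel
  rw [e2, classInner_add_left, classInner_smul_left, classInner_sub_left,
    classInner_ne F.μ.2 ψ.2 (fun h => h1 (Subtype.ext h.symm)),
    classInner_ne F.μ'.2 ψ.2 (fun h => h2 (Subtype.ext h.symm)), sub_zero, mul_zero, add_zero, F.c_spec, F.c_spec,
    map_intCast] at e1
  exact_mod_cast e1

/-- The virtual character induced from the support with principal coefficient `f`. -/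
noncomputable def beta : G → ℂ :=
  (F.f : ℂ) • F.D + (F.ε : ℂ) • ((F.f : ℂ) • (F.μ : G → ℂ) - ∑ a ∈ F.T, (a : G → ℂ))

/-- The sum of the differences inside the family. -/
noncomputable def alpha : G → ℂ := (F.f : ℂ) • (F.μ : G → ℂ) - ∑ a ∈ F.T, (a : G → ℂ)

theorem alpha_supp (g : G) (hg : g ∉ F.supp) : F.alpha g = 0 := by
  have h : ∀ a ∈ F.T, (a : G → ℂ) g = (F.μ : G → ℂ) g := fun a ha => F.diff_supp a ha F.μ F.μ_mem g hg
  simp [alpha, Finset.sum_congr rfl h, F.card_T]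

theorem beta_eq : F.beta = (F.f : ℂ) • F.D + (F.ε : ℂ) • F.alpha := rfl

theorem beta_supp (g : G) (hg : g ∉ F.supp) : F.beta g = 0 := by
  simp [F.beta_eq, F.alpha_supp g hg, F.D_supp g hg]

theorem inner_alpha [DecidableEq (Cfsg.IrrCharacter G)] (ψ : Cfsg.IrrCharacter G) :
    Cfsg.classInner (ψ : G → ℂ) F.alpha
      = (F.f : ℂ) * (if ψ = F.μ then 1 else 0) - (if ψ ∈ F.T then 1 else 0) := by
  rw [alpha, classInner_sub_right, classInner_smul_right, classInner_sum_right, classInner_irr, Complex.conj_natCast]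
  congr 1
  rw [Finset.sum_congr rfl (fun a _ => classInner_irr ψ a), Finset.sum_ite_eq]

theorem inner_D_alpha : Cfsg.classInner F.D F.alpha = -((F.ε : ℂ) * ((F.f : ℂ) - 1)) := by
  classical
  rw [alpha, classInner_sub_right, classInner_smul_right, classInner_sum_right, Complex.conj_natCast,
    ← Finset.add_sum_erase _ _ F.μ_mem,
    Finset.sum_congr rfl (fun a ha => by rw [F.c_spec, F.c_slope (Finset.mem_of_mem_erase ha) (Finset.ne_of_mem_erase ha)]),
    Finset.sum_const, Finset.card_erase_of_mem F.μ_mem, F.card_T, F.c_spec, nsmul_eq_mul,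
    Nat.cast_sub (F.card_T ▸ Finset.card_pos.2 ⟨_, F.μ_mem⟩)]
  push_cast; ring

theorem alpha_norm : Cfsg.classInner F.alpha F.alpha = (F.f : ℂ) * ((F.f : ℂ) - 1) := by
  classical
  conv_lhs => arg 1; rw [alpha]
  rw [classInner_sub_left, classInner_smul_left, classInner_sum_left, F.inner_alpha, if_pos rfl, if_pos F.μ_mem,
    Finset.sum_congr rfl (fun a ha => by rw [F.inner_alpha, if_pos ha])]
  rw [Finset.sum_sub_distrib, ← Finset.mul_sum, Finset.sum_ite_eq', if_pos F.μ_mem, Finset.sum_const, F.card_T,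
    nsmul_eq_mul]
  ring

theorem alpha_beta : Cfsg.classInner F.alpha F.beta = 0 := by
  rw [F.beta_eq, classInner_add_right, classInner_smul_right, classInner_smul_right, classInner_comm F.D F.alpha,
    F.inner_D_alpha, F.alpha_norm, Complex.conj_natCast, map_intCast]
  simp only [map_neg, map_mul, map_sub, map_intCast, Complex.conj_natCast, map_one]
  ring

theorem beta_norm : Cfsg.classInner F.beta F.beta = (F.f : ℂ) * ((F.e : ℂ) * F.f + 1) := by
  have h : Cfsg.classInner F.D F.beta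
      = (F.f : ℂ) * ((F.e : ℂ) + 1) - (F.ε : ℂ) * ((F.ε : ℂ) * ((F.f : ℂ) - 1)) := by
    rw [F.beta_eq, classInner_add_right, classInner_smul_right, classInner_smul_right, F.D_norm, F.inner_D_alpha,
      Complex.conj_natCast, map_intCast]
    ring
  conv_lhs => arg 1; rw [F.beta_eq]
  rw [classInner_add_left, classInner_smul_left, classInner_smul_left, F.alpha_beta, mul_zero, add_zero, h]
  rcases F.ε_unit with hh | hh <;> rw [hh] <;> push_cast <;> ring

end Fam

section System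
variable {ι : Type*} (F : ι → Fam G)
variable (hdisj : ∀ i k, i ≠ k → ∀ g, g ∈ (F i).supp → g ∉ (F k).supp)
include hdisj

theorem supp_orth {i k : ι} (hik : i ≠ k) {φ ψ : G → ℂ} (hφ : ∀ g, g ∉ (F i).supp → φ g = 0)
    (hψ : ∀ g, g ∉ (F k).supp → ψ g = 0) : Cfsg.classInner φ ψ = 0 :=
  classInner_eq_zero_of_disjoint fun g => by
    by_cases h : g ∈ (F i).supp
    · exact Or.inr (hψ g (hdisj i k hik g h))
    · exact Or.inl (hφ g h)

theorem fam_disjoint (h2 : ∀ i, 2 ≤ (F i).f) {i k : ι} (hik : i ≠ k) {a : Cfsg.IrrCharacter G}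
    (hi : a ∈ (F i).T) : a ∉ (F k).T := by
  classical
  intro hk
  obtain ⟨b, hb, hba⟩ := Finset.exists_mem_ne (by rw [(F i).card_T]; exact h2 i) a
  obtain ⟨c, hc, hca⟩ := Finset.exists_mem_ne (by rw [(F k).card_T]; exact h2 k) a
  have h := supp_orth F hdisj hik (φ := (a : G → ℂ) - (b : G → ℂ)) (ψ := (a : G → ℂ) - (c : G → ℂ))
    (fun g hg => by simp [(F i).diff_supp a hi b hb g hg]) (fun g hg => by simp [(F k).diff_supp a hk c hc g hg])
  rw [inner_pair, if_pos rfl, if_neg hca.symm, if_neg hba] at h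
  have h' := Int.cast_eq_zero.1 h
  split_ifs at h' <;> omega

theorem c_const {i k : ι} (hik : i ≠ k) {a : Cfsg.IrrCharacter G} (ha : a ∈ (F i).T) :
    (F k).c a = (F k).c (F i).μ := by
  have h := supp_orth F hdisj hik.symm (φ := (F k).D) (ψ := (a : G → ℂ) - ((F i).μ : G → ℂ))
    (F k).D_supp (fun g hg => by simp [(F i).diff_supp a ha _ (F i).μ_mem g hg])
  rw [classInner_sub_right, (F k).c_spec, (F k).c_spec, sub_eq_zero] at h
  exact_mod_cast h

/-- One of two companions sees the other family. -/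
theorem parity (hodd : Odd (Nat.card G)) (h2 : ∀ i, 2 ≤ (F i).f) {i k : ι} (hik : i ≠ k)
    (hik0 : (F i).c (F k).μ = 0) : (F k).c (F i).μ ≠ 0 := by
  classical
  intro hki0
  haveI := finite_irrCharacter (G := G)
  letI := Fintype.ofFinite (Cfsg.IrrCharacter G)
  have hsum : ∑ ψ, ((F i).c ψ * (F k).c ψ : ℤ) = 0 := by
    have h := supp_orth F hdisj hik (F i).D_supp (F k).D_supp
    obtain ⟨n, hn, hexp, -⟩ := gen_coeff (F k).D_gen
    conv_lhs at h => arg 2; rw [hexp]
    rw [classInner_sum_right] at h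
    have h' : ((∑ ψ, ((F i).c ψ * (F k).c ψ : ℤ) : ℤ) : ℂ) = 0 := by
      rw [← h]
      push_cast
      refine Finset.sum_congr rfl fun ψ _ => ?_
      rw [classInner_smul_right, map_intCast, (F i).c_spec, ← hn ψ, (F k).c_spec]
      ring
    exact_mod_cast h'
  let σ : Cfsg.IrrCharacter G → Cfsg.IrrCharacter G := fun ψ => ⟨Cfsg.conjFun ψ.1, irr_conjFun ψ.2⟩
  set Q : Finset (Cfsg.IrrCharacter G) := {oneChar, (F i).μ, (F i).μ', (F k).μ, (F k).μ'} with hQ
  have hσσ : ∀ ψ, σ (σ ψ) = ψ := fun ψ => Subtype.ext (conjFun_conjFun ψ.1)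
  have hμσ : ∀ j, σ (F j).μ = (F j).μ' := fun j => Subtype.ext (F j).μ'_eq.symm
  have hμσ' : ∀ j, σ (F j).μ' = (F j).μ := fun j => by rw [← hμσ j, hσσ]
  have hone : σ oneChar = oneChar := Subtype.ext (funext fun g => by simp [σ, Cfsg.conjFun, oneChar_apply])
  have hQσ : ∀ ψ, σ ψ ∈ Q → ψ ∈ Q := by
    intro ψ hψ
    rw [← hσσ ψ]
    simp only [hQ, Finset.mem_insert, Finset.mem_singleton] at hψ ⊢
    rcases hψ with h | h | h | h | h <;> rw [h]
    · exact Or.inl hone
    · exact Or.inr (Or.inr (Or.inl (hμσ i)))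
    · exact Or.inr (Or.inl (hμσ' i))
    · exact Or.inr (Or.inr (Or.inr (Or.inr (hμσ k))))
    · exact Or.inr (Or.inr (Or.inr (Or.inl (hμσ' k))))
  have hrest : ∑ ψ ∈ Finset.univ \ Q, (((F i).c ψ * (F k).c ψ : ℤ) : ZMod 2) = 0 := by
    refine Finset.sum_involution (fun ψ _ => σ ψ) (fun ψ hψ => ?_) (fun ψ hψ _ => ?_) (fun ψ hψ => ?_)
      (fun ψ _ => hσσ ψ)
    · simp only [Finset.mem_sdiff, Finset.mem_univ, true_and, hQ, Finset.mem_insert, Finset.mem_singleton, not_or] at hψ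
      rw [(F i).c_conj (φ := σ ψ) rfl hψ.2.1 hψ.2.2.1, (F k).c_conj (φ := σ ψ) rfl hψ.2.2.2.1 hψ.2.2.2.2]
      exact CharTwo.add_self_eq_zero _
    · simp only [Finset.mem_sdiff, Finset.mem_univ, true_and, hQ, Finset.mem_insert, not_or] at hψ
      intro h
      exact conjFun_ne_of_odd hodd ψ.2 (fun h1 => hψ.1 (Subtype.ext h1)) (congrArg Subtype.val h)
    · simp only [Finset.mem_sdiff, Finset.mem_univ, true_and] at hψ ⊢
      exact fun h => hψ (hQσ ψ h)
  have hz : ∀ a ∈ (F i).T, (F k).c a = 0 := fun a ha => by rw [c_const F hdisj hik ha, hki0]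
  have hz' : ∀ a ∈ (F k).T, (F i).c a = 0 := fun a ha => by rw [c_const F hdisj hik.symm ha, hik0]
  have hQsum : ∑ ψ ∈ Q, (((F i).c ψ * (F k).c ψ : ℤ) : ZMod 2) = 1 := by
    rw [Finset.sum_eq_single (oneChar : Cfsg.IrrCharacter G)]
    · simp [(F i).c_one, (F k).c_one]
    · intro ψ hψ hne
      simp only [hQ, Finset.mem_insert, Finset.mem_singleton] at hψ
      rcases hψ with h | h | h | h | h
      · exact absurd h hne
      · simp [h, hz _ (F i).μ_mem]
      · simp [h, hz _ (F i).μ'_mem]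
      · simp [h, hz' _ (F k).μ_mem]
      · simp [h, hz' _ (F k).μ'_mem]
    · intro h; simp [hQ] at h
  have h : ((∑ ψ, ((F i).c ψ * (F k).c ψ : ℤ) : ℤ) : ZMod 2) = 0 := by rw [hsum]; rfl
  rw [Int.cast_sum, ← Finset.sum_sdiff (Finset.subset_univ Q), hrest, hQsum, zero_add] at h
  exact one_ne_zero h

variable [Fintype ι] [DecidableEq ι]

/-- The inflow bound. -/
theorem inflow (h2 : ∀ i, 2 ≤ (F i).f) (i : ι) (I : Finset ι) (hI : ∀ k ∈ I, k ≠ i ∧ (F i).c (F k).μ ≠ 0) :
    ∑ k ∈ I, ((F k).f : ℤ) + 1 ≤ (F i).e := by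
  classical
  haveI := finite_irrCharacter (G := G)
  letI := Fintype.ofFinite (Cfsg.IrrCharacter G)
  have hsub := Finset.sum_le_sum_of_subset_of_nonneg
    (Finset.subset_univ (insert (oneChar : Cfsg.IrrCharacter G) ((F i).T ∪ I.biUnion fun k => (F k).T)))
    (f := fun ψ => (F i).c ψ ^ 2) (fun ψ _ _ => sq_nonneg _)
  rw [(F i).sum_c_sq, Finset.sum_insert, Finset.sum_union, Finset.sum_biUnion, (F i).c_one] at hsub
  · have hown : 1 ≤ ∑ ψ ∈ (F i).T, (F i).c ψ ^ 2 := by
      obtain ⟨b, hb, hbμ⟩ := Finset.exists_mem_ne (by rw [(F i).card_T]; exact h2 i) (F i).μ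
      by_contra hlt
      push Not at hlt
      have h0 : ∑ ψ ∈ (F i).T, (F i).c ψ ^ 2 = 0 :=
        le_antisymm (by omega) (Finset.sum_nonneg fun ψ _ => sq_nonneg _)
      rw [Finset.sum_eq_zero_iff_of_nonneg fun ψ _ => sq_nonneg _] at h0
      have e1 := pow_eq_zero_iff two_ne_zero |>.1 (h0 b hb)
      have e2 := pow_eq_zero_iff two_ne_zero |>.1 (h0 _ (F i).μ_mem)
      rw [(F i).c_slope hb hbμ, e2] at e1
      rcases (F i).ε_unit with h | h <;> omega
    have hin : ∑ k ∈ I, ((F k).f : ℤ) ≤ ∑ k ∈ I, ∑ ψ ∈ (F k).T, (F i).c ψ ^ 2 := by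
      refine Finset.sum_le_sum fun k hk => ?_
      rw [Finset.sum_congr rfl (fun ψ hψ => by rw [c_const F hdisj (hI k hk).1 hψ]), Finset.sum_const, (F k).card_T,
        nsmul_eq_mul]
      have : 0 < (F i).c (F k).μ ^ 2 := by have := (hI k hk).2; positivity
      exact le_mul_of_one_le_right (by positivity) this
    linarith
  · intro k _ l _ hkl
    exact Finset.disjoint_left.2 fun a ha => fam_disjoint F hdisj h2 hkl ha
  · rw [Finset.disjoint_left]
    intro a ha h
    obtain ⟨k, hk, hk'⟩ := Finset.mem_biUnion.1 h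
    exact fam_disjoint F hdisj h2 (hI k hk).1 hk' ha
  · intro h
    rcases Finset.mem_union.1 h with h | h
    · exact (F i).ne_one _ h rfl
    · obtain ⟨k, -, hk'⟩ := Finset.mem_biUnion.1 h
      exact (F k).ne_one _ hk' rfl

/-- The outflow bound. -/
theorem outflow (h2 : ∀ i, 2 ≤ (F i).f) (i : ι) (O : Finset ι) (hO : ∀ k ∈ O, k ≠ i ∧ (F k).c (F i).μ ≠ 0) :
    ∑ k ∈ O, ((F k).f : ℝ) / ((F k).e * (F k).f + 1 : ℝ) + (Nat.card G : ℝ)⁻¹
      ≤ (F i).e / ((F i).e * (F i).f + 1 : ℝ) := by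
  classical
  haveI := finite_irrCharacter (G := G)
  set S : Finset (Option (Option ι)) := insert none (insert (some none) ((insert i O).image fun k => some (some k)))
  obtain ⟨v, hv0, hva, hvb⟩ : ∃ v : Option (Option ι) → G → ℂ, v none = (fun g => if g = 1 then 1 else 0) ∧
      v (some none) = (F i).alpha ∧ ∀ k, v (some (some k)) = (F k).beta :=
    ⟨fun o => match o with
      | none => fun g => if g = 1 then 1 else 0
      | some none => (F i).alpha
      | some (some k) => (F k).beta, rfl, rfl, fun _ => rfl⟩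
  let N : Option (Option ι) → ℝ := fun o => match o with
    | none => (Nat.card G : ℝ)⁻¹
    | some none => (F i).f * ((F i).f - 1)
    | some (some k) => (F k).f * ((F k).e * (F k).f + 1)
  let y : Option (Option ι) → ℝ := fun o => match o with
    | none => (Nat.card G : ℝ)⁻¹ * Cfsg.charDegree ((F i).μ : G → ℂ)
    | some none => (F i).f - 1
    | some (some k) => (((F k).f * (F k).c (F i).μ + if k = i then (F i).ε * ((F i).f - 1) else 0 : ℤ) : ℝ)
  have hG : (0 : ℝ) < (Nat.card G : ℝ) := Nat.cast_pos.2 Nat.card_pos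
  have hf2 : ∀ k, (2 : ℝ) ≤ (F k).f := fun k => by exact_mod_cast h2 k
  have hsq : ∀ x : ℤ, x ≠ 0 → 1 ≤ x ^ 2 := fun x h => by
    have : 0 < x ^ 2 := by positivity
    omega
  have hy : ∀ o ∈ S, Cfsg.classInner ((F i).μ : G → ℂ) (v o) = (y o : ℂ) := by
    intro o _
    rcases o with _ | _ | k
    · rw [hv0, classInner_delta, apply_one (isCharacter_of_irr (F i).μ.2)]
      simp [y]
    · rw [hva, (F i).inner_alpha, if_pos rfl, if_pos (F i).μ_mem]
      simp [y]
    · rw [hvb, (F k).beta_eq, classInner_add_right, classInner_smul_right, classInner_smul_right,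
        classInner_comm (F k).D, (F k).c_spec, (F k).inner_alpha, map_intCast, Complex.conj_natCast, map_intCast]
      by_cases h : k = i
      · subst h
        rw [if_pos rfl, if_pos (F k).μ_mem]
        simp [y]
      · have h' : (F i).μ ∉ (F k).T := fam_disjoint F hdisj h2 (Ne.symm h) (F i).μ_mem
        rw [if_neg h', if_neg (fun (e : (F i).μ = (F k).μ) => h' (e ▸ (F k).μ_mem))]
        simp [y, h]
  have hb := (bessel S v N y ?_ ?_ ?_ ((F i).μ : G → ℂ) hy).1
  · rw [classInner_self (F i).μ.2, Complex.one_re] at hb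
    simp only [S] at hb
    rw [Finset.sum_insert (by simp), Finset.sum_insert (by simp), Finset.sum_image (by simp [Set.InjOn]),
      Finset.sum_insert (fun h => (hO i h).1 rfl)] at hb
    have e1 : (Nat.card G : ℝ)⁻¹ ≤ y none ^ 2 / N none := by
      simp only [y, N]
      have hd : (1 : ℝ) ≤ Cfsg.charDegree ((F i).μ : G → ℂ) := by
        exact_mod_cast charDegree_pos (F i).μ.2
      rw [mul_pow, sq (Nat.card G : ℝ)⁻¹, mul_assoc, mul_div_assoc, mul_div_cancel_left₀ _ (inv_ne_zero hG.ne')]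
      exact le_mul_of_one_le_right (by positivity) (one_le_pow₀ hd)
    have e2 : y (some none) ^ 2 / N (some none) = ((F i).f - 1 : ℝ) / (F i).f := by
      simp only [y, N]
      have := hf2 i
      have h1 : ((F i).f : ℝ) - 1 ≠ 0 := by linarith
      field_simp
    have e3 : 1 / ((F i).f * ((F i).e * (F i).f + 1) : ℝ) ≤ y (some (some i)) ^ 2 / N (some (some i)) := by
      simp only [y, N, if_pos]
      refine div_le_div_of_nonneg_right ?_ (by positivity)
      have hne : ((F i).f : ℤ) * (F i).c (F i).μ + (F i).ε * (((F i).f : ℤ) - 1) ≠ 0 := by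
        intro h0
        have hdvd : ((F i).f : ℤ) ∣ (F i).ε := ⟨(F i).c (F i).μ + (F i).ε, by linear_combination -h0⟩
        have hle := Nat.le_of_dvd (by rcases (F i).ε_unit with h | h <;> simp [h]) (Int.natCast_dvd.1 hdvd)
        have := h2 i
        rcases (F i).ε_unit with h | h <;> rw [h] at hle <;> simp at hle <;> omega
      exact_mod_cast hsq _ hne
    have e4 : ∑ k ∈ O, ((F k).f : ℝ) / ((F k).e * (F k).f + 1 : ℝ) ≤ ∑ k ∈ O, y (some (some k)) ^ 2 / N (some (some k)) := by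
      refine Finset.sum_le_sum fun k hk => ?_
      simp only [y, N, if_neg (hO k hk).1, add_zero]
      have h1 : (1 : ℝ) ≤ ((F k).c (F i).μ : ℝ) ^ 2 := by exact_mod_cast hsq _ (hO k hk).2
      have h3 := hf2 k
      have he : (0 : ℝ) < (F k).e * (F k).f + 1 := by positivity
      rw [div_le_div_iff₀ he (by positivity)]
      push_cast
      nlinarith [mul_le_mul_of_nonneg_left h1 (by positivity : (0 : ℝ) ≤ (F k).f * (F k).f * ((F k).e * (F k).f + 1))]
    have e5 : ((F i).f - 1 : ℝ) / (F i).f + 1 / ((F i).f * ((F i).e * (F i).f + 1) : ℝ)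
        = 1 - (F i).e / ((F i).e * (F i).f + 1 : ℝ) := by
      have := hf2 i
      field_simp
      ring
    linarith
  · intro o _
    rcases o with _ | _ | k <;> simp only [N]
    · positivity
    · have := hf2 i; nlinarith
    · have := hf2 k; positivity
  · have hv : ∀ g, (g : G) = 1 → ∀ k, (F k).alpha g = 0 ∧ (F k).beta g = 0 := fun g hg k =>
      ⟨(F k).alpha_supp g (hg ▸ (F k).one_not), (F k).beta_supp g (hg ▸ (F k).one_not)⟩
    have h0 : ∀ p, Cfsg.classInner (v none) (v (some p)) = 0 := fun p => classInner_eq_zero_of_disjoint fun g => by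
      by_cases hg : g = 1
      · right
        rcases p with _ | k
        · rw [hva]; exact (hv g hg i).1
        · rw [hvb]; exact (hv g hg k).2
      · exact Or.inl (by rw [hv0]; exact if_neg hg)
    have hab : ∀ k, Cfsg.classInner (v (some none)) (v (some (some k))) = 0 := fun k => by
      by_cases hki : k = i
      · subst hki; rw [hva, hvb]; exact (F k).alpha_beta
      · rw [hva, hvb]; exact supp_orth F hdisj (Ne.symm hki) (F i).alpha_supp (F k).beta_supp
    intro o _ p _ hop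
    rcases o with _ | _ | k <;> rcases p with _ | _ | l
    · exact absurd rfl hop
    · exact h0 _
    · exact h0 _
    · rw [classInner_comm (v none), h0, map_zero]
    · exact absurd rfl hop
    · exact hab l
    · rw [classInner_comm (v none), h0, map_zero]
    · rw [classInner_comm (v (some none)), hab, map_zero]
    · rw [hvb, hvb]; exact supp_orth F hdisj (fun h => hop (by rw [h])) (F k).beta_supp (F l).beta_supp
  · intro o _
    rcases o with _ | _ | k
    · rw [hv0, classInner_delta]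
      simp [N]
    · rw [hva, (F i).alpha_norm]; simp [N]
    · rw [hvb, (F k).beta_norm]; simp [N]

/-- The numerical contradiction: the weights of the families cannot add up to one. -/
theorem false_of_fams [Nontrivial ι] (hodd : Odd (Nat.card G)) (he : ∀ k, Odd (F k).e ∧ 3 ≤ (F k).e)
    (hf : ∀ k, Even (F k).f ∧ 2 ≤ (F k).f) (h : ι → ℕ) (hpos : ∀ k, 0 < h k)
    (hprime : ∀ k, ((F k).e * (F k).f + 1).Prime → h k = (F k).e * (F k).f + 1)
    (hinj : Function.Injective fun k => (F k).e * (F k).f + 1)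
    (hsum : ∑ k, ((h k : ℝ) - 1) / ((F k).e * (h k : ℝ)) + (Nat.card G : ℝ)⁻¹ = 1) : False := by
  classical
  have h2 : ∀ k, 2 ≤ (F k).f := fun k => (hf k).2
  obtain ⟨i, -, hmin⟩ := Finset.exists_min_image Finset.univ (fun k => (F k).e * (F k).f + 1) Finset.univ_nonempty
  set O := (Finset.univ.erase i).filter fun k => (F k).c (F i).μ ≠ 0 with hOdef
  set I := (Finset.univ.erase i).filter fun k => ¬ (F k).c (F i).μ ≠ 0 with hIdef
  have hO : ∀ k ∈ O, k ≠ i ∧ (F k).c (F i).μ ≠ 0 := fun k hk => by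
    simpa [hOdef] using hk
  have hI : ∀ k ∈ I, k ≠ i ∧ (F i).c (F k).μ ≠ 0 := fun k hk => by
    simp only [hIdef, Finset.mem_filter, Finset.mem_erase, Finset.mem_univ, and_true, not_not] at hk
    exact ⟨hk.1, fun h0 => parity F hdisj hodd h2 (Ne.symm hk.1) h0 hk.2⟩
  have hout := outflow F hdisj h2 i O hO
  have hin : ∑ k ∈ I, ((F k).f : ℝ) + 1 ≤ (F i).e := by exact_mod_cast inflow F hdisj h2 i I hI
  have hG : (0 : ℝ) < (Nat.card G : ℝ)⁻¹ := inv_pos.2 (Nat.cast_pos.2 Nat.card_pos)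
  have hodd' : ∀ k, Odd ((F k).e * (F k).f + 1) := fun k => Even.add_one ((hf k).1.mul_left _)
  have hgap : ∀ k, k ≠ i → (F i).e * (F i).f + 3 ≤ (F k).e * (F k).f + 1 := fun k hk => by
    have h1 := hmin k (Finset.mem_univ _)
    have h2' : (F i).e * (F i).f + 1 ≠ (F k).e * (F k).f + 1 := fun h' => hk (hinj h'.symm)
    obtain ⟨a, ha⟩ := hodd' i
    obtain ⟨b, hb⟩ := hodd' k
    omega
  have hsplit : ((h i : ℝ) - 1) / ((F i).e * (h i : ℝ)) + (∑ k ∈ O, ((h k : ℝ) - 1) / ((F k).e * (h k : ℝ))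
      + ∑ k ∈ I, ((h k : ℝ) - 1) / ((F k).e * (h k : ℝ))) + (Nat.card G : ℝ)⁻¹ = 1 := by
    rw [hOdef, hIdef, Finset.sum_filter_add_sum_filter_not]
    have h' := Finset.add_sum_erase Finset.univ (fun k => ((h k : ℝ) - 1) / ((F k).e * (h k : ℝ))) (Finset.mem_univ i)
    linarith
  have hw : ∀ k, ((h k : ℝ) - 1) / ((F k).e * (h k : ℝ)) ≤ 1 / (F k).e := fun k => by
    have h1 : (0 : ℝ) < h k := Nat.cast_pos.2 (hpos k)
    have h3 : (3 : ℝ) ≤ (F k).e := by exact_mod_cast (he k).2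
    rw [div_le_div_iff₀ (by positivity) (by linarith)]
    nlinarith
  have hwp : ∀ k, ((F k).e * (F k).f + 1).Prime → ((h k : ℝ) - 1) / ((F k).e * (h k : ℝ))
      = ((F k).f : ℝ) / ((F k).e * (F k).f + 1 : ℝ) := fun k hk => by
    have h3 : (3 : ℝ) ≤ (F k).e := by exact_mod_cast (he k).2
    rw [hprime k hk]
    push_cast
    field_simp
    ring
  have hwA : ∀ k (m : ℝ), 1 < m → m ≤ ((F k).e * (F k).f + 1 : ℝ) →
      ((h k : ℝ) - 1) / ((F k).e * (h k : ℝ)) ≤ m / (m - 1) * (((F k).f : ℝ) / ((F k).e * (F k).f + 1 : ℝ)) ∧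
      ((h k : ℝ) - 1) / ((F k).e * (h k : ℝ)) ≤ (F k).f / (m - 1) := by
    intro k m hm hmk
    have h3 : (3 : ℝ) ≤ (F k).e := by exact_mod_cast (he k).2
    have h4 : (2 : ℝ) ≤ (F k).f := by exact_mod_cast (hf k).2
    refine ⟨(hw k).trans ?_, (hw k).trans ?_⟩
    · rw [div_mul_div_comm, div_le_div_iff₀ (by linarith) (by nlinarith)]
      nlinarith
    · rw [div_le_div_iff₀ (by linarith) (by linarith)]
      nlinarith
  have key : ∀ φ B : ℝ, 1 ≤ φ →
      (∀ k ∈ O, ((h k : ℝ) - 1) / ((F k).e * (h k : ℝ)) ≤ φ * (((F k).f : ℝ) / ((F k).e * (F k).f + 1 : ℝ))) →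
      ∑ k ∈ I, ((h k : ℝ) - 1) / ((F k).e * (h k : ℝ)) ≤ B →
      1 ≤ ((h i : ℝ) - 1) / ((F i).e * (h i : ℝ)) + φ * ((F i).e / ((F i).e * (F i).f + 1 : ℝ)) + B := by
    intro φ B hφ hOb hIb
    have h5 := Finset.sum_le_sum hOb
    rw [← Finset.mul_sum] at h5
    nlinarith [mul_le_mul_of_nonneg_left hout (le_trans zero_le_one hφ), mul_le_mul_of_nonneg_right hφ hG.le]
  have he3 : (3 : ℝ) ≤ (F i).e := by exact_mod_cast (he i).2
  by_cases hf4 : 4 ≤ (F i).f
  · have hf4' : (4 : ℝ) ≤ (F i).f := by exact_mod_cast hf4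
    have hm : ∀ k, k ≠ i → ((F i).e * (F i).f + 3 : ℝ) ≤ ((F k).e * (F k).f + 1 : ℝ) := fun k hk => by
      exact_mod_cast hgap k hk
    have hM : (1 : ℝ) < (F i).e * (F i).f + 3 := by nlinarith
    have hB : ∑ k ∈ I, ((h k : ℝ) - 1) / ((F k).e * (h k : ℝ))
        ≤ ((F i).e - 1) / ((F i).e * (F i).f + 3 - 1 : ℝ) := by
      refine (Finset.sum_le_sum fun k hk => (hwA k _ hM (hm k (hI k hk).1)).2).trans ?_
      rw [← Finset.sum_div]
      exact div_le_div_of_nonneg_right (by linarith) (by linarith)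
    have h1 := key _ _ (by rw [one_le_div (by linarith)]; linarith) (fun k hk => (hwA k _ hM (hm k (hO k hk).1)).1) hB
    have hp : (12 : ℝ) ≤ (F i).e * (F i).f := by nlinarith
    have b1 : ((F i).e * (F i).f + 3 : ℝ) / ((F i).e * (F i).f + 3 - 1) ≤ 15 / 14 := by
      rw [div_le_div_iff₀ (by linarith) (by norm_num)]; linarith
    have b2 : ((F i).e : ℝ) / ((F i).e * (F i).f + 1) ≤ 1 / 4 := by
      rw [div_le_div_iff₀ (by linarith) (by norm_num)]; nlinarith
    have b3 : ((F i).e - 1 : ℝ) / ((F i).e * (F i).f + 3 - 1) ≤ 1 / 4 := by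
      rw [div_le_div_iff₀ (by linarith) (by norm_num)]; nlinarith
    have b4 : ((h i : ℝ) - 1) / ((F i).e * (h i : ℝ)) ≤ 1 / 3 :=
      (hw i).trans (one_div_le_one_div_of_le (by norm_num) he3)
    nlinarith [mul_le_mul b1 b2 (by positivity) (by norm_num : (0:ℝ) ≤ 15/14)]
  have hfi : (F i).f = 2 := by
    obtain ⟨a, ha⟩ := (hf i).1
    have := h2 i
    omega
  have hfi' : ((F i).f : ℝ) = 2 := by exact_mod_cast hfi
  obtain ⟨E, hE⟩ := (he i).1
  by_cases hk0 : ∃ k, (F k).e * (F k).f + 1 = 2 * (F i).e + 3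
  swap
  · push Not at hk0
    have hm : ∀ k, k ≠ i → (2 * (F i).e + 5 : ℝ) ≤ ((F k).e * (F k).f + 1 : ℝ) := fun k hk => by
      have h1 := hgap k hk
      have h3 := hk0 k
      obtain ⟨b, hb⟩ := hodd' k
      rw [hfi] at h1
      exact_mod_cast (show 2 * (F i).e + 5 ≤ (F k).e * (F k).f + 1 by omega)
    have hM : (1 : ℝ) < 2 * (F i).e + 5 := by linarith
    have hB : ∑ k ∈ I, ((h k : ℝ) - 1) / ((F k).e * (h k : ℝ)) ≤ ((F i).e - 1) / (2 * (F i).e + 5 - 1 : ℝ) := by
      refine (Finset.sum_le_sum fun k hk => (hwA k _ hM (hm k (hI k hk).1)).2).trans ?_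
      rw [← Finset.sum_div]
      exact div_le_div_of_nonneg_right (by linarith) (by linarith)
    have h1 := key _ _ (by rw [one_le_div (by linarith)]; linarith) (fun k hk => (hwA k _ hM (hm k (hO k hk).1)).1) hB
    rw [hfi'] at h1
    rcases Nat.lt_or_ge 4 (F i).e with h5 | h5
    · have h5' : (5 : ℝ) ≤ (F i).e := by exact_mod_cast h5
      have h6 : 1 ≤ 1 / ((F i).e : ℝ) + (2 * (F i).e + 5) / (2 * (F i).e + 5 - 1) * ((F i).e / ((F i).e * 2 + 1))
          + ((F i).e - 1) / (2 * (F i).e + 5 - 1) := by linarith [hw i]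
      linarith [num_case₁ _ h5']
    · have hei : (F i).e = 3 := by have := (he i).2; omega
      have h7 := hwp i (by rw [hei, hfi]; norm_num)
      rw [h7, hfi', hei] at h1
      norm_num at h1
  obtain ⟨k₀, hk₀⟩ := hk0
  have hk₀i : k₀ ≠ i := by
    rintro rfl
    rw [hfi] at hk₀
    omega
  have he0 := he k₀
  have hef : (F k₀).e * (F k₀).f = 2 * (F i).e + 2 := by omega
  have hne37 : (F i).e ≠ 3 ∧ (F i).e ≠ 7 := by
    constructor <;> intro h3 <;> rw [h3] at hef <;>
      have hd : (F k₀).e ∣ 16 := by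
        first
          | exact ⟨(F k₀).f, by omega⟩
          | exact Dvd.dvd.trans ⟨(F k₀).f, hef.symm⟩ (by norm_num)
    all_goals
      obtain ⟨⟨b, hb⟩, h3'⟩ := he0
      have hle := Nat.le_of_dvd (by norm_num) hd
      interval_cases (F k₀).e <;> first | omega | norm_num at hd
  have he5 : 5 ≤ (F i).e := by have := (he i).2; omega
  have he5' : (5 : ℝ) ≤ (F i).e := by exact_mod_cast he5
  have hm : ∀ k, k ≠ i → k ≠ k₀ → (2 * (F i).e + 5 : ℝ) ≤ ((F k).e * (F k).f + 1 : ℝ) := fun k hk hk' => by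
    have h1 := hgap k hk
    have h3 : (F k).e * (F k).f + 1 ≠ 2 * (F i).e + 3 := fun h' => hk' (hinj (h'.trans hk₀.symm))
    obtain ⟨b, hb⟩ := hodd' k
    rw [hfi] at h1
    exact_mod_cast (show 2 * (F i).e + 5 ≤ (F k).e * (F k).f + 1 by omega)
  have hm0 : ((F k₀).e * (F k₀).f + 1 : ℝ) = 2 * (F i).e + 3 := by exact_mod_cast hk₀
  have hM5 : (1 : ℝ) < 2 * (F i).e + 5 := by linarith
  have hM3 : (1 : ℝ) < 2 * (F i).e + 3 := by linarith
  by_cases hk0O : k₀ ∈ O
  · have hnI : k₀ ∉ I := fun h' => (Finset.mem_filter.1 h').2 (Finset.mem_filter.1 hk0O).2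
    have hB : ∑ k ∈ I, ((h k : ℝ) - 1) / ((F k).e * (h k : ℝ)) ≤ ((F i).e - 1) / (2 * (F i).e + 5 - 1 : ℝ) := by
      refine (Finset.sum_le_sum fun k hk =>
        (hwA k _ hM5 (hm k (hI k hk).1 fun e => hnI (e ▸ hk))).2).trans ?_
      rw [← Finset.sum_div]
      exact div_le_div_of_nonneg_right (by linarith) (by linarith)
    have h1 := key _ _ (by rw [one_le_div (by linarith)]; linarith) (fun k hk => (hwA k _ hM3 (by
      have := hgap k (hO k hk).1
      rw [hfi] at this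
      exact_mod_cast (show 2 * (F i).e + 3 ≤ (F k).e * (F k).f + 1 by omega))).1) hB
    rw [hfi'] at h1
    have h6 : 1 ≤ 1 / ((F i).e : ℝ) + (2 * (F i).e + 3) / (2 * (F i).e + 3 - 1) * ((F i).e / ((F i).e * 2 + 1))
        + ((F i).e - 1) / (2 * (F i).e + 5 - 1) := by linarith [hw i]
    linarith [num_case₂ _ he5']
  have hk0I : k₀ ∈ I := by
    simp only [hIdef, Finset.mem_filter, Finset.mem_erase, Finset.mem_univ, and_true]
    exact ⟨hk₀i, fun h' => hk0O (by simp [hOdef, hk₀i, h'])⟩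
  have hf0 : 3 * ((F k₀).f : ℝ) ≤ 2 * (F i).e + 2 := by
    exact_mod_cast (show 3 * (F k₀).f ≤ 2 * (F i).e + 2 by have := he0.2; nlinarith)
  rw [← Finset.add_sum_erase _ _ hk0I] at hin
  have hB0 : ∑ k ∈ I.erase k₀, ((h k : ℝ) - 1) / ((F k).e * (h k : ℝ))
      ≤ ((F i).e - 1 - (F k₀).f) / (2 * (F i).e + 5 - 1 : ℝ) := by
    refine (Finset.sum_le_sum fun k hk => (hwA k _ hM5 (hm k (hI k (Finset.mem_of_mem_erase hk)).1
      (Finset.ne_of_mem_erase hk))).2).trans ?_
    rw [← Finset.sum_div]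
    exact div_le_div_of_nonneg_right (by linarith) (by linarith)
  have hB : ∑ k ∈ I, ((h k : ℝ) - 1) / ((F k).e * (h k : ℝ)) ≤ ((h k₀ : ℝ) - 1) / ((F k₀).e * (h k₀ : ℝ)) +
      ((F i).e - 1 - (F k₀).f) / (2 * (F i).e + 5 - 1 : ℝ) := by
    rw [← Finset.add_sum_erase _ _ hk0I]; linarith
  have h1 := key _ _ (by rw [one_le_div (by linarith)]; linarith)
    (fun k hk => (hwA k _ hM5 (hm k (hO k hk).1 fun e => hk0O (e ▸ hk))).1) hB
  rw [hfi'] at h1
  by_cases h55 : (F i).e = 5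
  · have hM : (F k₀).e * (F k₀).f + 1 = 13 := by omega
    rw [hwp i (by rw [h55, hfi]; norm_num), hwp k₀ (by rw [hM]; norm_num), hfi', hm0, h55] at h1
    norm_num at h1
    have hf4 : 3 * (F k₀).f ≤ 12 := by have := he0.2; nlinarith
    have hf4' : ((F k₀).f : ℝ) ≤ 4 := by exact_mod_cast (show (F k₀).f ≤ 4 by omega)
    linarith
  have h0b := (hwA k₀ _ hM3 hm0.ge).2
  have hcorr : ((F k₀).f : ℝ) / (2 * (F i).e + 3 - 1) - (F k₀).f / (2 * (F i).e + 5 - 1)
      ≤ 2 / (3 * (2 * (F i).e + 4)) := by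
    rw [div_sub_div _ _ (by linarith) (by linarith), div_le_div_iff₀ (by nlinarith) (by linarith)]
    nlinarith
  rw [sub_div _ ((F k₀).f : ℝ)] at h1
  by_cases h99 : (F i).e = 9
  · rw [hwp i (by rw [h99, hfi]; norm_num), hfi', h99] at h1
    rw [h99] at hcorr h0b
    norm_num at h1 hcorr h0b
    linarith
  have he11 : (11 : ℝ) ≤ (F i).e := by exact_mod_cast (show 11 ≤ (F i).e by omega)
  have h6 : 1 ≤ 1 / ((F i).e : ℝ) + (2 * (F i).e + 5) / (2 * (F i).e + 5 - 1) * ((F i).e / ((F i).e * 2 + 1))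
      + ((F i).e - 1) / (2 * (F i).e + 5 - 1) + 2 / (3 * (2 * (F i).e + 4)) := by linarith [hw i]
  linarith [num_case₃ _ he11]

end System

end CfsgLib.Exceptional
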