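import Mathlib
import Cfsg.Prelude.Def_OddOrderLocal
import Cfsg.Agent.Exceptional.TI
import Cfsg.Agent.Exceptional.TICover
import Cfsg.Agent.Exceptional.Coherent
import Cfsg.Agent.Exceptional.FrobTI
import Cfsg.Agent.Exceptional.LinearFamily

/-! The exceptional family attached to a trivial intersection nilpotent Frobenius kernel. -/

set_option autoImplicit false

namespace CfsgLib.Exceptional

open CfsgLib.CharBasics
open scoped ComplexConjugate

universe u

theorem conjFun_sub' {X : Type u} (φ ψ : X → ℂ) :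
    Cfsg.conjFun (φ - ψ) = Cfsg.conjFun φ - Cfsg.conjFun ψ := by
  funext x; simp [Cfsg.conjFun]

theorem conjFun_indFun {X : Type u} [Group X] [Fintype X] (H : Subgroup X) (θ : H → ℂ) :
    Cfsg.conjFun (Cfsg.indFun H θ) = Cfsg.indFun H (Cfsg.conjFun θ) := by
  funext g
  simp only [Cfsg.conjFun, Cfsg.indFun, map_mul, map_inv₀, Complex.conj_natCast, map_sum]
  congr 1
  refine Finset.sum_congr rfl fun x _ => ?_
  by_cases h : x⁻¹ * g * x ∈ H
  · rw [extendByZero_coe H θ ⟨_, h⟩, extendByZero_coe H (Cfsg.conjFun θ) ⟨_, h⟩]; rfl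
  · rw [extendByZero_of_not_mem H θ h, extendByZero_of_not_mem H (Cfsg.conjFun θ) h, map_zero]

/-- The character induced from the principal one of a normal subgroup. -/
theorem indFun_one_apply {X : Type u} [Group X] [Fintype X] (K : Subgroup X) [K.Normal] [DecidablePred (· ∈ K)]
    (x : X) : Cfsg.indFun K (fun _ => 1) x = if x ∈ K then (K.index : ℂ) else 0 := by
  split_ifs with hx
  · rw [Cfsg.indFun, Finset.sum_congr rfl (fun y _ => (?_ : Cfsg.extendByZero K (fun _ => (1 : ℂ)) (y⁻¹ * x * y) = 1)),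
      Finset.sum_const, Finset.card_univ, nsmul_eq_mul, mul_one, ← Nat.card_eq_fintype_card, ← K.card_mul_index,
      Nat.cast_mul, inv_mul_cancel_left₀ (Nat.cast_ne_zero.2 Nat.card_pos.ne')]
    exact extendByZero_coe K _ ⟨_, by simpa using (inferInstance : K.Normal).conj_mem x hx y⁻¹⟩
  · exact indFun_zero_off K _ hx

variable {G : Type u} [Group G] [Fintype G]

theorem exists_fam (hodd : Odd (Nat.card G)) (L H : Subgroup G) (hlt : H < L) (hbot : H ≠ ⊥)
    (hn : ∀ x ∈ L, ∀ h ∈ H, x * h * x⁻¹ ∈ H)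
    (hfrob : ∀ h ∈ H, h ≠ 1 → L ⊓ Subgroup.centralizer ({h} : Set G) ≤ H)
    (hti : Cfsg.IsTISubset (H : Set G)) (hN : Subgroup.normalizer (H : Set G) = L) :
    ∃ F : Fam G, (Odd F.e ∧ 3 ≤ F.e) ∧ (Even F.f ∧ 2 ≤ F.f) ∧
      F.supp = {g | ∃ x : G, x * g * x⁻¹ ∈ H ∧ g ≠ 1} ∧
      F.e * Nat.card H = Nat.card L ∧ F.e * F.f + 1 ∣ Nat.card H ∧
      ((F.e * F.f + 1).Prime → Nat.card H = F.e * F.f + 1) := by
  classical
  letI := Fintype.ofFinite L
  haveI hKn : (H.subgroupOf L).Normal :=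
    ⟨fun k hk x => Subgroup.mem_subgroupOf.2 (by simpa using hn x x.2 k (Subgroup.mem_subgroupOf.1 hk))⟩
  letI := Fintype.ofFinite (H.subgroupOf L)
  have hC : ∀ n ∈ H.subgroupOf L, n ≠ 1 → Subgroup.centralizer ({n} : Set L) ≤ H.subgroupOf L := by
    intro n hn' hn1 x hx
    exact hfrob n hn' (fun h => hn1 (Subtype.ext h)) (Subgroup.mem_inf.2 ⟨x.2,
      Subgroup.mem_centralizer_singleton_iff.2 (congrArg Subtype.val (Subgroup.mem_centralizer_singleton_iff.1 hx))⟩)
  have hcardK : Nat.card (H.subgroupOf L) = Nat.card H :=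
    Nat.card_congr (Subgroup.subgroupOfEquivOfLe hlt.le).toEquiv
  haveI : Nontrivial (H.subgroupOf L) :=
    Finite.one_lt_card_iff_nontrivial.1 (by rw [hcardK]; exact (Subgroup.one_lt_card_iff_ne_bot H).2 hbot)
  -- nilpotency
  obtain ⟨x, hxL, hxH⟩ := SetLike.exists_of_lt hlt
  obtain ⟨p, hp, hpd⟩ := Nat.exists_prime_and_dvd (show orderOf x ≠ 1 from fun h => hxH (by
    rw [orderOf_eq_one_iff.1 h]; exact one_mem H))
  set y : L := ⟨x, hxL⟩ ^ (orderOf x / p) with hy
  have hyo : orderOf y = p := by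
    rw [hy, ← Subgroup.orderOf_coe, Subgroup.coe_pow]
    exact (orderOf_pow_of_dvd (Nat.div_pos (Nat.le_of_dvd (orderOf_pos _) hpd) hp.pos).ne' (Nat.div_dvd_of_dvd hpd)).trans
      (Nat.div_div_self hpd (orderOf_pos _).ne')
  haveI : Group.IsNilpotent (H.subgroupOf L) := by
    refine CfsgLib.ZJ.isNilpotent_of_fixedPointFree (α := MulAut.conjNormal y) hp ?_ ?_
    · intro v hv
      by_contra hv1
      have h1 : y * (v : L) * y⁻¹ = (v : L) := by
        have h0 := congrArg Subtype.val hv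
        rwa [MulAut.conjNormal_apply] at h0
      have h2 : y ∈ H.subgroupOf L := hC v v.2 (fun h => hv1 (Subtype.ext h))
        (Subgroup.mem_centralizer_singleton_iff.2 (mul_inv_eq_iff_eq_mul.mp h1))
      have hy1 : (y : G) ≠ 1 := fun h => hp.one_lt.ne' (by
        rw [← hyo, show y = 1 from Subtype.ext h, orderOf_one])
      refine hxH (hfrob y h2 hy1 ⟨hxL, Subgroup.mem_centralizer_singleton_iff.2 ?_⟩)
      rw [hy, Subgroup.coe_pow]
      exact ((Commute.refl x).pow_right _).eq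
    · rw [← map_pow, ← hyo, pow_orderOf_eq_one, map_one]
  -- numerical data
  haveI := finite_irrCharacter (G := L)
  letI := Fintype.ofFinite (Cfsg.IrrCharacter L)
  set T := Finset.univ.filter fun χ : Cfsg.IrrCharacter L =>
    Rel (H.subgroupOf L) (χ : L → ℂ) ∧ (χ : L → ℂ) 1 = ((H.subgroupOf L).index : ℂ) with hT
  have hcount := card_linear_family (H.subgroupOf L) hC
  rw [← hT] at hcount
  have heodd : Odd (H.subgroupOf L).index := hodd.of_dvd_nat
    ((Subgroup.index_dvd_card (H.subgroupOf L)).trans (Subgroup.card_subgroup_dvd_card L))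
  have he3 : 3 ≤ (H.subgroupOf L).index := by
    have h1 : (H.subgroupOf L).index ≠ 1 := fun h => by
      rw [Subgroup.index_eq_one, Subgroup.subgroupOf_eq_top] at h
      exact absurd h (not_le_of_gt hlt)
    obtain ⟨a, ha⟩ := heodd
    omega
  have hdvd : (H.subgroupOf L).index * T.card + 1 ∣ Nat.card H := by
    rw [hcount, ← hcardK]; exact card_abelianization_dvd _
  have hTpos : T.card ≠ 0 := by
    intro h0
    rw [h0, mul_zero, zero_add] at hcount
    have hlt' := Group.IsSolvable.commutator_lt_top_of_nontrivial (H.subgroupOf L)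
    exact hlt'.ne (Subgroup.index_eq_one.1 hcount.symm)
  have hfeven : Even T.card := by
    have h1 : Odd ((H.subgroupOf L).index * T.card + 1) :=
      hodd.of_dvd_nat (hdvd.trans (Subgroup.card_subgroup_dvd_card H))
    rcases Nat.even_or_odd T.card with h | h
    · exact h
    · exact absurd (heodd.mul h).add_one (Nat.not_even_iff_odd.2 h1)
  have hf2 : 2 ≤ T.card := by
    obtain ⟨a, ha⟩ := hfeven
    omega
  have hprime : ((H.subgroupOf L).index * T.card + 1).Prime → Nat.card H = (H.subgroupOf L).index * T.card + 1 := by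
    intro hp'
    rw [hcount] at hp' ⊢
    haveI := comm_of_prime_abelianization hp'
    letI : CommGroup (H.subgroupOf L) :=
      { (inferInstance : Group (H.subgroupOf L)) with mul_comm := fun a b => mul_comm' a b }
    rw [← hcardK]
    exact Nat.card_congr (Abelianization.equivOfComm (H := H.subgroupOf L)).toEquiv
  -- the family
  have hLmem : ∀ g : G, g ∉ L → g ∉ Subgroup.normalizer (H : Set G) := fun g hg => by rwa [hN]
  set S : Set G := {g | g ∈ H ∧ g ≠ 1} with hSdef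
  have hsetup : TISetup L S :=
    ⟨fun g hg => hlt.le hg.1, fun g hg s hs => ⟨hn g hg s hs.1, fun e => hs.2 (conj_eq_one_iff.1 e)⟩,
      fun g hg s hs hgs => hs.2 (hti g (hLmem g hg) s hs.1 hgs.1)⟩
  set X0 : L → ℂ := Cfsg.indFun (H.subgroupOf L) (fun _ => 1) with hX0
  have hX0c : Cfsg.IsCharacter L X0 := isCharacter_indFun _ (isCharacter_of_irr isIrrCharacter_one)
  have hX0v : ∀ x, X0 x = if x ∈ H.subgroupOf L then ((H.subgroupOf L).index : ℂ) else 0 :=
    indFun_one_apply _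
  have hmemT : ∀ χ ∈ T, Rel (H.subgroupOf L) (χ : L → ℂ) ∧ (χ : L → ℂ) 1 = ((H.subgroupOf L).index : ℂ) :=
    fun χ h => (Finset.mem_filter.1 h).2
  have hvan : ∀ χ ∈ T, ∀ x, x ∉ H.subgroupOf L → (χ : L → ℂ) x = 0 := fun χ h =>
    (rel_induced _ hC χ.2 (hmemT χ h).1).1
  have hsupp : ∀ φ : L → ℂ, (∀ x, x ∉ H.subgroupOf L → φ x = 0) → φ 1 = 0 →
      ∀ x : L, (x : G) ∉ S → φ x = 0 := by
    intro φ h1 h2 x hx
    by_cases hxH : x ∈ H.subgroupOf L
    · have : x = 1 := Subtype.ext (not_not.1 fun h => hx ⟨hxH, h⟩)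
      rw [this, h2]
    · exact h1 x hxH
  have hX0t : ∀ χ ∈ T, Cfsg.classInner X0 (χ : L → ℂ) = 0 := by
    intro χ hχ
    rw [hX0, classInner_indFun _ _ (isClassFunction (isCharacter_of_irr χ.2)), classInner_eq]
    simp only [one_mul]
    rw [← map_sum, rel_sum_eq_zero _ hC χ.2 (hmemT χ hχ).1, map_zero, mul_zero]
  have hX0X0 : Cfsg.classInner X0 X0 = ((H.subgroupOf L).index : ℂ) := by
    conv_lhs => arg 1; rw [hX0]
    rw [classInner_indFun _ _ (isClassFunction hX0c), classInner_eq,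
      Finset.sum_congr rfl (fun k _ => by rw [hX0v, if_pos k.2, Complex.conj_natCast, one_mul]), Finset.sum_const,
      Finset.card_univ, nsmul_eq_mul, ← Nat.card_eq_fintype_card,
      inv_mul_cancel_left₀ (Nat.cast_ne_zero.2 Nat.card_pos.ne')]
  have hX0one : Cfsg.classInner X0 (fun _ => 1) = 1 := by
    rw [hX0, classInner_indFun _ _ (isClassFunction (isCharacter_of_irr isIrrCharacter_one))]
    exact classInner_self isIrrCharacter_one
  haveI : Nonempty {χ // χ ∈ T} := (Finset.card_pos.1 (Nat.pos_of_ne_zero hTpos)).to_subtype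
  obtain ⟨ε, μf, hε, hinj, hτ⟩ := exceptional_family (fun i : {χ // χ ∈ T} => (i.1 : L → ℂ))
    (fun i => i.1.2) (fun i j h => Subtype.ext (Subtype.ext h))
    (by
      obtain ⟨a, ha⟩ := Finset.card_pos.1 (Nat.pos_of_ne_zero hTpos)
      obtain ⟨b, hb, hba⟩ := Finset.exists_mem_ne (by omega : 1 < T.card) a
      exact ⟨⟨b, hb⟩, ⟨a, ha⟩, fun h => hba (congrArg Subtype.val h)⟩)
    (Cfsg.indFun L)
    (fun i j => gen_indFun _ (gen_sub (gen_of_character (isCharacter_of_irr i.1.2))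
      (gen_of_character (isCharacter_of_irr j.1.2))))
    (fun i j => by rw [indFun_apply_one]; simp [(hmemT i.1 i.2).2, (hmemT j.1 j.2).2])
    (fun i j k l => classInner_indFun_indFun hsetup
      (gen_isClassFunction (gen_sub (gen_of_character (isCharacter_of_irr k.1.2))
        (gen_of_character (isCharacter_of_irr l.1.2))))
      (hsupp _ (fun x hx => by simp [hvan i.1 i.2 x hx, hvan j.1 j.2 x hx])
        (by simp [(hmemT i.1 i.2).2, (hmemT j.1 j.2).2]))
      (hsupp _ (fun x hx => by simp [hvan k.1 k.2 x hx, hvan l.1 l.2 x hx])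
        (by simp [(hmemT k.1 k.2).2, (hmemT l.1 l.2).2])))
    (fun i j k => by simp only [indFun_sub', sub_add_sub_cancel])
  obtain ⟨εz, hεz, hεeq⟩ : ∃ z : ℤ, (z = 1 ∨ z = -1) ∧ ε = (z : ℂ) := by
    rcases hε with h | h
    · exact ⟨1, Or.inl rfl, by simp [h]⟩
    · exact ⟨-1, Or.inr rfl, by simp [h]⟩
  have hεε : ε * ε = 1 := by rcases hε with h | h <;> simp [h]
  have hεc : conj ε = ε := by rcases hε with h | h <;> simp [h]
  -- a conjugate pair
  obtain ⟨t, ht⟩ := Finset.card_pos.1 (Nat.pos_of_ne_zero hTpos)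
  have htne : (t : L → ℂ) ≠ fun _ => 1 := rel_ne_one _ hC t.2 (hmemT t ht).1
  have hoddL : Odd (Nat.card L) := hodd.of_dvd_nat (Subgroup.card_subgroup_dvd_card L)
  obtain ⟨tc, htc⟩ : ∃ tc : Cfsg.IrrCharacter L, (tc : L → ℂ) = Cfsg.conjFun (t : L → ℂ) :=
    ⟨⟨_, irr_conjFun t.2⟩, rfl⟩
  have htcT : tc ∈ T := by
    refine Finset.mem_filter.2 ⟨Finset.mem_univ _, ?_⟩
    obtain ⟨⟨k, hk, hk'⟩, hdeg⟩ := hmemT t ht
    refine ⟨⟨k, hk, fun h => hk' ?_⟩, ?_⟩
    · rw [htc] at h
      exact (starRingEnd ℂ).injective h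
    · rw [htc]; simp [Cfsg.conjFun, hdeg]
  have htct : tc ≠ t := fun h => conjFun_ne_of_odd hoddL t.2 htne (by rw [← htc, h])
  have hφT : ∀ χ ∈ T, ∀ x : L, (x : G) ∉ S → (X0 - (χ : L → ℂ)) x = 0 := fun χ hχ => hsupp _
    (fun x hx => by simp [hX0v, if_neg hx, hvan χ hχ x hx])
    (by simp [hX0v, one_mem, (hmemT χ hχ).2])
  have hφcl : ∀ χ : Cfsg.IrrCharacter L, Cfsg.IsClassFunction L (X0 - (χ : L → ℂ)) := fun χ =>
    gen_isClassFunction (gen_sub (gen_of_character hX0c) (gen_of_character (isCharacter_of_irr χ.2)))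
  have hX0r : Cfsg.conjFun X0 = X0 := by
    funext x
    simp only [Cfsg.conjFun, hX0v]
    split_ifs <;> simp
  have hsuppG : ∀ φ : L → ℂ, (∀ x : L, (x : G) ∉ S → φ x = 0) → ∀ g,
      g ∉ {g : G | ∃ x : G, x * g * x⁻¹ ∈ H ∧ g ≠ 1} → Cfsg.indFun L φ g = 0 := by
    intro φ hφ g hg
    refine indFun_eq_zero_of_no_conj hφ g fun x hx => hg ⟨x, hx.1, fun h => hx.2 ?_⟩
    rw [h]; simp
  have hprin : ∀ i : {χ // χ ∈ T}, μf i ≠ oneChar := by
    intro i hi
    obtain ⟨j, hj⟩ : ∃ j : {χ // χ ∈ T}, j ≠ i := by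
      obtain ⟨b, hb, hbi⟩ := Finset.exists_mem_ne (by omega : 1 < T.card) i.1
      exact ⟨⟨b, hb⟩, fun h => hbi (congrArg Subtype.val h)⟩
    have h0 : Cfsg.classInner (Cfsg.indFun L ((i.1 : L → ℂ) - (j.1 : L → ℂ))) (fun _ : G => 1) = 0 := by
      rw [classInner_indFun _ _ (isClassFunction (isCharacter_of_irr isIrrCharacter_one)), classInner_sub_left,
        classInner_ne i.1.2 isIrrCharacter_one (rel_ne_one _ hC i.1.2 (hmemT i.1 i.2).1),
        classInner_ne j.1.2 isIrrCharacter_one (rel_ne_one _ hC j.1.2 (hmemT j.1 j.2).1), sub_zero]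
    rw [hτ i j, classInner_smul_left, classInner_sub_left, hi,
      classInner_ne (μf j).2 isIrrCharacter_one (fun h => hinj.ne hj ((Subtype.ext h : μf j = oneChar).trans hi.symm)),
      sub_zero, show Cfsg.classInner ((oneChar : Cfsg.IrrCharacter G) : G → ℂ) (fun _ => 1) = 1 from
        classInner_self isIrrCharacter_one, mul_one] at h0
    rcases hε with h | h <;> norm_num [h] at h0
  have hμ'c : ((μf ⟨tc, htcT⟩ : Cfsg.IrrCharacter G) : G → ℂ) = Cfsg.conjFun (μf ⟨t, ht⟩ : G → ℂ) := by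
    have h1 := hτ ⟨t, ht⟩ ⟨tc, htcT⟩
    have h2 := congrArg Cfsg.conjFun h1
    have h3 : Cfsg.conjFun ((t : L → ℂ) - (tc : L → ℂ)) = (tc : L → ℂ) - (t : L → ℂ) := by
      rw [conjFun_sub', htc, conjFun_conjFun]
    rw [conjFun_indFun, h3, hτ ⟨tc, htcT⟩ ⟨t, ht⟩] at h2
    by_contra hne
    have h4 := congrArg (fun φ => Cfsg.classInner φ (μf ⟨tc, htcT⟩ : G → ℂ)) h2
    have h5 : Cfsg.conjFun (ε • ((μf ⟨t, ht⟩ : G → ℂ) - (μf ⟨tc, htcT⟩ : G → ℂ)))
        = ε • (Cfsg.conjFun (μf ⟨t, ht⟩ : G → ℂ) - Cfsg.conjFun (μf ⟨tc, htcT⟩ : G → ℂ)) := by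
      funext g; simp [Cfsg.conjFun, hεc]
    simp only [h5, classInner_smul_left, classInner_sub_left, classInner_self (μf ⟨tc, htcT⟩).2,
      classInner_ne (μf ⟨t, ht⟩).2 (μf ⟨tc, htcT⟩).2 (fun h => htct (congrArg Subtype.val
        (hinj (Subtype.ext h : μf ⟨t, ht⟩ = μf ⟨tc, htcT⟩))).symm),
      classInner_ne (irr_conjFun (μf ⟨t, ht⟩).2) (μf ⟨tc, htcT⟩).2 (Ne.symm hne),
      classInner_ne (irr_conjFun (μf ⟨tc, htcT⟩).2) (μf ⟨tc, htcT⟩).2
        (conjFun_ne_of_odd hodd (μf ⟨tc, htcT⟩).2 fun h => hprin _ (Subtype.ext h))] at h4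
    rcases hε with h | h <;> norm_num [h] at h4
  have hslope : ∀ a : {χ // χ ∈ T}, a ≠ ⟨t, ht⟩ →
      Cfsg.classInner (Cfsg.indFun L (X0 - (t : L → ℂ))) (μf a : G → ℂ) -
        Cfsg.classInner (Cfsg.indFun L (X0 - (t : L → ℂ))) (μf ⟨t, ht⟩ : G → ℂ) = ε := by
    intro a ha
    have h1 : ((μf a : G → ℂ) - (μf ⟨t, ht⟩ : G → ℂ)) = ε • Cfsg.indFun L ((a.1 : L → ℂ) - (t : L → ℂ)) := by
      rw [hτ a ⟨t, ht⟩, smul_smul, hεε, one_smul]
    rw [← classInner_sub_right, h1, classInner_smul_right, hεc,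
      classInner_indFun_indFun hsetup (gen_isClassFunction (gen_sub (gen_of_character (isCharacter_of_irr a.1.2))
        (gen_of_character (isCharacter_of_irr t.2)))) (hφT t ht)
        (hsupp _ (fun x hx => by simp [hvan a.1 a.2 x hx, hvan t ht x hx])
          (by simp [(hmemT a.1 a.2).2, (hmemT t ht).2])),
      classInner_sub_left, classInner_sub_right, classInner_sub_right, hX0t _ a.2, hX0t t ht, classInner_self t.2,
      classInner_ne t.2 a.1.2 (fun h => ha (Subtype.ext (Subtype.ext h.symm)))]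
    ring
  let F : Fam G :=
    { e := (H.subgroupOf L).index
      f := T.card
      supp := {g | ∃ x : G, x * g * x⁻¹ ∈ H ∧ g ≠ 1}
      one_not := fun ⟨x, _, h⟩ => h rfl
      D := Cfsg.indFun L (X0 - (t : L → ℂ))
      D_gen := gen_indFun _ (gen_sub (gen_of_character hX0c) (gen_of_character (isCharacter_of_irr t.2)))
      D_supp := hsuppG _ (hφT t ht)
      D_norm := by
        rw [classInner_indFun_indFun hsetup (hφcl t) (hφT t ht) (hφT t ht), classInner_sub_left, classInner_sub_right,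
          classInner_sub_right, hX0X0, hX0t t ht, classInner_self t.2, classInner_comm X0, hX0t t ht]
        simp
      D_one := by
        rw [classInner_indFun _ _ (isClassFunction (isCharacter_of_irr isIrrCharacter_one)), classInner_sub_left,
          hX0one, classInner_ne t.2 isIrrCharacter_one htne, sub_zero]
      T := Finset.univ.image μf
      card_T := by rw [Finset.card_image_of_injective _ hinj, Finset.card_univ, Fintype.card_coe]
      ne_one := fun a ha => by
        obtain ⟨i, -, rfl⟩ := Finset.mem_image.1 ha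
        exact hprin i
      diff_supp := fun a ha b hb g hg => by
        obtain ⟨i, -, rfl⟩ := Finset.mem_image.1 ha
        obtain ⟨j, -, rfl⟩ := Finset.mem_image.1 hb
        have h := hsuppG _ (hsupp ((i.1 : L → ℂ) - (j.1 : L → ℂ))
          (fun x hx => by simp [hvan i.1 i.2 x hx, hvan j.1 j.2 x hx])
          (by simp [(hmemT i.1 i.2).2, (hmemT j.1 j.2).2])) g hg
        rw [hτ i j] at h
        simp only [Pi.smul_apply, Pi.sub_apply, smul_eq_mul, mul_eq_zero] at h
        exact sub_eq_zero.1 (h.resolve_left fun h0 => one_ne_zero (α := ℂ) (by rw [← hεε, h0, mul_zero]))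
      μ := μf ⟨t, ht⟩
      μ' := μf ⟨tc, htcT⟩
      μ_mem := Finset.mem_image.2 ⟨_, Finset.mem_univ _, rfl⟩
      μ'_mem := Finset.mem_image.2 ⟨_, Finset.mem_univ _, rfl⟩
      μ'_eq := hμ'c
      ε := εz
      ε_unit := hεz
      slope := fun a ha hne => by
        obtain ⟨i, -, rfl⟩ := Finset.mem_image.1 ha
        rw [← hεeq]
        exact hslope i (fun h => hne (by rw [h]))
      D_conj := by
        rw [← hεeq, ← hτ ⟨t, ht⟩ ⟨tc, htcT⟩, conjFun_indFun, conjFun_sub', hX0r, ← htc, ← indFun_sub']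
        congr 1
        abel }
  refine ⟨F, ⟨heodd, he3⟩, ⟨hfeven, hf2⟩, rfl, ?_, hdvd, hprime⟩
  show (H.subgroupOf L).index * Nat.card H = Nat.card L
  rw [← hcardK, mul_comm, Subgroup.card_mul_index]

end CfsgLib.Exceptional
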